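import Cfsg.Agent.H580.EPX.TypeI2
import Cfsg.Agent.H586.EPX.Surj
import Cfsg.Agent.H758.EPX.TK

/-!
# S5745, `k ≥ 2`: the number of two-point stabilisers `M` with `M ∩ N = 1` (helper580, plan helper746)
-/

set_option autoImplicit false
set_option linter.unusedSectionVars false

namespace Cfsg.Agent.H580.EPX

open Subgroup Cfsg.Agent.H284 Cfsg.Agent.H209.EPX Cfsg.Agent.H758.EPX Cfsg.Agent.Schreier.Basic

universe u

variable {G : Type u} [Group G] {H N : Subgroup G} {T : Type} [Group T] {k : ℕ}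

/-- **Type (i)** : the number of `M` with `M ∩ N = 1` is at most `|T|^(k-1) * (|Aut T| * r)`, `|H| < |T|^(r+1)`. -/
theorem ncard_typeI [Finite G] {e : N ≃* (Fin k → T)} (h : EPS H N e) (hsch : Sch T) {r : ℕ}
    (hr : Nat.card H < Nat.card T ^ (r + 1)) :
    {M : Subgroup G | ∃ x, x ∉ H ∧ M = H ⊓ cj x H ∧ M ⊓ N = ⊥}.ncard ≤
      Nat.card T ^ (k - 1) * (Nat.card (MulAut T) * r) := by
  have hs := h.simple
  have hfin : Finite T := Finite.of_injective _ (inj_injective e ⟨0, h.pos⟩)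
  refine ncard_typeI' h hsch ⟨0, h.pos⟩ ?_
  have hle : Zc e H ⟨0, h.pos⟩ ≤ H := fun z hz => hz.1
  exact H586.EPX.ncard_surj_le h.nab (lt_of_le_of_lt (Subgroup.card_le_of_le hle) hr)

/-- **TK, all `k`** : `t = |T|`, `a = |Aut T|`, `L ≥ |LocK T \ {T}|`, `|H| < t^(r+1)`:
`|G| ≤ (1 + (L^k + (k a)^(k-1) + t^(k-1) (a r)) * 2 t^k) |H|`. -/
theorem tk_all [Finite G] {e : N ≃* (Fin k → T)} (h : EPS H N e) (hsch : Sch T) {L r : ℕ}
    (hL : (Cfsg.Agent.H273.EPU.LocK T \ {⊤}).ncard ≤ L) (hr : Nat.card H < Nat.card T ^ (r + 1)) :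
    Nat.card G ≤ (1 + (L ^ k + (k * Nat.card (MulAut T)) ^ (k - 1) +
      Nat.card T ^ (k - 1) * (Nat.card (MulAut T) * r)) * (2 * Nat.card T ^ k)) * Nat.card H := by
  have hfin : Finite T := Finite.of_injective _ (inj_injective e ⟨0, h.pos⟩)
  refine tk_gen h.ep (fun x hx => EPS.M_ne_bot h hx) ?_ ?_
  · refine le_trans ((Set.ncard_le_ncard ?_ (Set.toFinite _)).trans ((Set.ncard_union_le _ _).trans
      (add_le_add ((Set.ncard_union_le _ _).trans (add_le_add (EPS.ncard_le h) (EPS.ncard_diag_le h)))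
      (ncard_typeI h hsch hr))))
      (add_le_add (add_le_add (Nat.pow_le_pow_left hL k) (ncard_Dg_le_pow h.pos h.simple h.nab)) le_rfl)
    rintro M ⟨x, hx, hM⟩
    by_cases h0 : ∃ i, Kt e H x i ≠ ⊥
    · exact Or.inl (Or.inl ⟨x, hx, hM, h0⟩)
    · push Not at h0
      by_cases h1 : Dt e H x = ⊥
      · refine Or.inr ⟨x, hx, hM, ?_⟩
        rw [Subgroup.eq_bot_iff_forall]
        rintro g ⟨hg, hgN⟩
        rw [hM] at hg
        have h2 : e ⟨g, hgN⟩ ∈ Dt e H x := (apply_mem_Dt (n := ⟨g, hgN⟩)).mpr (mem_inf.1 hg).2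
        rw [h1, Subgroup.mem_bot, map_eq_one_iff e e.injective] at h2
        exact congrArg Subtype.val h2
      · exact Or.inl (Or.inr ⟨x, hx, hM, h0, h1⟩)
  · intro x hx
    have h1 := EPS.card_mul h hx
    rw [card_N e] at h1
    have h2 : 1 ≤ Nat.card (H ⊓ cj x H ⊓ N : Subgroup G) := Nat.card_pos
    calc Nat.card H = Nat.card H * 1 := (mul_one _).symm
      _ ≤ Nat.card H * Nat.card (H ⊓ cj x H ⊓ N : Subgroup G) := Nat.mul_le_mul_left _ h2
      _ = Nat.card (H ⊓ cj x H : Subgroup G) * Nat.card T ^ k := h1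
      _ = Nat.card T ^ k * Nat.card (H ⊓ cj x H : Subgroup G) := mul_comm _ _

end Cfsg.Agent.H580.EPX
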